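import Groth.Prelude.Def_Formal2
import Groth.Prelude.Def_FEt
import Groth.Agent.Fdesc.LocGenPullback
import Groth.Agent.Fga.UnitRestrict
import Mathlib.AlgebraicGeometry.IdealSheaf.Functorial

/-!
# Transport of the Picard-group predicates along isomorphic closed immersions

`Formal2.PicPullbackInjective` and `Formal2.PicPullbackSurjective` for the closed immersion
`Spec (A/t) ∩ U → U` (restriction of `Spec (A/t) → Spec A` to an open `U`) and for the inclusion of the
closed subscheme of `U` cut out by the ideal sheaf of `Spec (A/t)`.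
-/

set_option autoImplicit false
universe u
open CategoryTheory CategoryTheory.Limits AlgebraicGeometry

namespace Groth.Agent.Sga2lef.H77.PicRes

theorem surjective_of_iso {Y Y' Z : Scheme.{u}} (e : Z ⟶ Y') [IsIso e] (g : Y' ⟶ Y) (ι : Z ⟶ Y)
    (h : e ≫ g = ι) (H : Formal2.PicPullbackSurjective g) : Formal2.PicPullbackSurjective ι := by
  intro L' hL'
  obtain ⟨L, hL, ⟨i⟩⟩ := H ((Scheme.Modules.pullback (inv e)).obj L')
    (Groth.Agent.Fdesc.LocGen.isInvertible_pullback _ hL')
  refine ⟨L, hL, ⟨?_⟩⟩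
  exact (Scheme.Modules.pullbackCongr h.symm).app L ≪≫
    ((Scheme.Modules.pullbackComp e g).app L).symm ≪≫
    (Scheme.Modules.pullback e).mapIso i ≪≫
    (Scheme.Modules.pullbackComp e (inv e)).app L' ≪≫
    (Scheme.Modules.pullbackCongr (IsIso.hom_inv_id e)).app L' ≪≫
    (Scheme.Modules.pullbackId _).app L'

theorem injective_of_iso {Y Y' Z : Scheme.{u}} (e : Z ⟶ Y') [IsIso e] (g : Y' ⟶ Y) (ι : Z ⟶ Y)
    (h : e ≫ g = ι) (H : Formal2.PicPullbackInjective g) : Formal2.PicPullbackInjective ι := by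
  rintro L hL ⟨i⟩
  refine H L hL ⟨?_⟩
  have h' : g = inv e ≫ ι := by rw [← h, IsIso.inv_hom_id_assoc]
  exact (Scheme.Modules.pullbackCongr h').app L ≪≫
    ((Scheme.Modules.pullbackComp (inv e) ι).app L).symm ≪≫
    (Scheme.Modules.pullback (inv e)).mapIso i ≪≫
    Groth.Agent.Fga.UnitRestrict.pullbackUnitIso _

/-- The closed subscheme of `U` cut out by the ideal sheaf of a closed immersion `f : Z ⟶ X` is
`f ⁻¹ U`. -/
theorem exists_iso {X Z : Scheme.{u}} (f : Z ⟶ X) [IsClosedImmersion f] (U : X.Opens) :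
    ∃ e : (f.ker.comap U.ι).subscheme ⟶ (f ⁻¹ᵁ U : Scheme.{u}), IsIso e ∧
      e ≫ (f ∣_ U) = (f.ker.comap U.ι).subschemeι := by
  have h : IsPullback (f ∣_ U) (f ⁻¹ᵁ U).ι U.ι f := isPullback_morphismRestrict f U
  have hk : (f ∣_ U).ker = f.ker.comap U.ι := by
    rw [← Scheme.IdealSheafData.ker_fst_of_isClosedImmersion, ← h.isoPullback_hom_fst,
      Scheme.Hom.ker_comp_of_isIso]
  rw [← hk]
  refine ⟨inv (f ∣_ U).toImage, inferInstance, ?_⟩
  rw [IsIso.inv_comp_eq]
  exact ((f ∣_ U).toImage_imageι).symm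

theorem surjective_subschemeι {X Z : Scheme.{u}} (f : Z ⟶ X) [IsClosedImmersion f] (U : X.Opens)
    (H : Formal2.PicPullbackSurjective (f ∣_ U)) :
    Formal2.PicPullbackSurjective (f.ker.comap U.ι).subschemeι := by
  obtain ⟨e, he, h⟩ := exists_iso f U
  exact surjective_of_iso e _ _ h H

theorem injective_subschemeι {X Z : Scheme.{u}} (f : Z ⟶ X) [IsClosedImmersion f] (U : X.Opens)
    (H : Formal2.PicPullbackInjective (f ∣_ U)) :
    Formal2.PicPullbackInjective (f.ker.comap U.ι).subschemeι := by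
  obtain ⟨e, he, h⟩ := exists_iso f U
  exact injective_of_iso e _ _ h H

end Groth.Agent.Sga2lef.H77.PicRes
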